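import Mathlib
import Cfsg.Agent.Lib.Helper4.Dihedral

set_option autoImplicit false

namespace Cfsg.Agent.Lib.Helper4

variable {G : Type*} [Group G]

/-- `u ^ ((a : ZMod (orderOf u)).cast) = u ^ a`. -/
lemma zpow_zmod_cast_intCast (u : G) (a : ℤ) :
    u ^ (ZMod.cast (a : ZMod (orderOf u)) : ℤ) = u ^ a := by
  rw [zpow_eq_zpow_iff_modEq, ← ZMod.intCast_eq_intCast_iff]
  simp

lemma zpow_zmod_cast_add (u : G) (i j : ZMod (orderOf u)) :
    u ^ (ZMod.cast (i + j) : ℤ) = u ^ (ZMod.cast i : ℤ) * u ^ (ZMod.cast j : ℤ) := by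
  rw [← zpow_add, ← zpow_zmod_cast_intCast u (ZMod.cast i + ZMod.cast j)]
  simp

lemma zpow_zmod_cast_sub (u : G) (i j : ZMod (orderOf u)) :
    u ^ (ZMod.cast (j - i) : ℤ) = u ^ (-(ZMod.cast i : ℤ)) * u ^ (ZMod.cast j : ℤ) := by
  rw [← zpow_add, ← zpow_zmod_cast_intCast u (-(ZMod.cast i) + ZMod.cast j)]
  congr 2
  simp
  ring

/-- The homomorphism from the dihedral group onto the group generated by two involutions. -/
noncomputable def dihHom (x y : G) (hx : x * x = 1) (hy : y * y = 1) :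
    DihedralGroup (orderOf (x * y)) →* G where
  toFun d := match d with
    | DihedralGroup.r i => (x * y) ^ (ZMod.cast i : ℤ)
    | DihedralGroup.sr i => x * (x * y) ^ (ZMod.cast i : ℤ)
  map_one' := by
    rw [DihedralGroup.one_def]
    simp
  map_mul' := by
    rintro (i | i) (j | j)
    · rw [DihedralGroup.r_mul_r]
      exact zpow_zmod_cast_add _ i j
    · rw [DihedralGroup.r_mul_sr]
      show x * (x * y) ^ (ZMod.cast (j - i) : ℤ) =
        (x * y) ^ (ZMod.cast i : ℤ) * (x * (x * y) ^ (ZMod.cast j : ℤ))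
      rw [zpow_zmod_cast_sub, ← mul_assoc, ← mul_assoc, dih_comm' hx hy]
    · rw [DihedralGroup.sr_mul_r]
      show x * (x * y) ^ (ZMod.cast (i + j) : ℤ) =
        x * (x * y) ^ (ZMod.cast i : ℤ) * (x * y) ^ (ZMod.cast j : ℤ)
      rw [zpow_zmod_cast_add, mul_assoc]
    · rw [DihedralGroup.sr_mul_sr]
      show (x * y) ^ (ZMod.cast (j - i) : ℤ) =
        x * (x * y) ^ (ZMod.cast i : ℤ) * (x * (x * y) ^ (ZMod.cast j : ℤ))
      rw [zpow_zmod_cast_sub, ← mul_assoc, dih_conj_x hx hy]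

lemma dihHom_r (x y : G) (hx : x * x = 1) (hy : y * y = 1) (i : ZMod (orderOf (x * y))) :
    dihHom x y hx hy (DihedralGroup.r i) = (x * y) ^ (ZMod.cast i : ℤ) := rfl

lemma dihHom_sr (x y : G) (hx : x * x = 1) (hy : y * y = 1) (i : ZMod (orderOf (x * y))) :
    dihHom x y hx hy (DihedralGroup.sr i) = x * (x * y) ^ (ZMod.cast i : ℤ) := rfl

lemma dihHom_injective (x y : G) (hx : orderOf x = 2) (hy : orderOf y = 2) :
    Function.Injective (dihHom x y (mul_self_of_orderOf_two hx) (mul_self_of_orderOf_two hy)) := by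
  rw [injective_iff_map_eq_one]
  rintro (i | i) h
  · rw [dihHom_r] at h
    have h1 := (orderOf_dvd_iff_zpow_eq_one).mpr h
    have h2 : ((ZMod.cast i : ℤ) : ZMod (orderOf (x * y))) = 0 :=
      (ZMod.intCast_zmod_eq_zero_iff_dvd _ _).mpr h1
    rw [ZMod.intCast_zmod_cast] at h2
    rw [h2, DihedralGroup.r_zero]
  · rw [dihHom_sr] at h
    exact absurd h (dih_x_not_mem hx hy _)

lemma dihHom_range (x y : G) (hx : x * x = 1) (hy : y * y = 1) :
    (dihHom x y hx hy).range = Subgroup.closure ({x, y} : Set G) := by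
  apply le_antisymm
  · rintro _ ⟨d, rfl⟩
    rcases d with i | i
    · rw [dihHom_r]; exact dih_mem_closure_zpow x y _
    · rw [dihHom_sr]; exact dih_mem_closure_x_zpow x y _
  · rw [Subgroup.closure_le]
    rintro z (rfl | hz)
    · refine ⟨DihedralGroup.sr 0, ?_⟩
      rw [dihHom_sr]; simp
    · rw [Set.mem_singleton_iff] at hz; subst hz
      refine ⟨DihedralGroup.sr 1, ?_⟩
      rw [dihHom_sr]
      have := zpow_zmod_cast_intCast (x * z) 1
      rw [Int.cast_one] at this
      rw [this, zpow_one, x_mul_xy hx]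

/-- Two involutions generate a dihedral group. -/
noncomputable def dihEquiv (x y : G) (hx : orderOf x = 2) (hy : orderOf y = 2) :
    ↥(Subgroup.closure ({x, y} : Set G)) ≃* DihedralGroup (orderOf (x * y)) :=
  (MulEquiv.subgroupCongr (dihHom_range x y (mul_self_of_orderOf_two hx)
    (mul_self_of_orderOf_two hy)).symm).trans
    (MonoidHom.ofInjective (dihHom_injective x y hx hy)).symm

end Cfsg.Agent.Lib.Helper4
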