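import Mathlib
import Cfsg.Agent.Lib.Helper91.M11Sylow
import Cfsg.Agent.Lib.Helper91.SSFull
import Cfsg.Agent.Lib.Helper91.SSVanish
import Cfsg.Agent.Lib.Helper91.SSTop
import Cfsg.Agent.Lib.Helper91.SSRel

set_option autoImplicit false

/-!
# Numerical form of the principal block for a Sylow subgroup of prime order

`block_data` is `brauer_full` with all degrees made explicit, together with the statement
that (when `C(P) = P`) every irreducible character outside the block has degree divisible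
by `p`.  `three_pair` is the `p = 3` case of `brauer_top`: two irreducible characters of
consecutive degrees `f`, `f + 1` with `f ≡ 1 mod 3`, `f ≠ 1`.
-/

namespace Cfsg.Agent.Lib.Helper4.OrdBlock

open Cfsg Cfsg.Agent.Lib.Helper17 Cfsg.Agent.Lib.Helper91.SS Cfsg.Agent.Lib.Helper91.M11

variable {G : Type*} [Group G] [Finite G]

/-- a nonzero integer has square `1` or at least `4` -/
theorem sq_one_or_four (b : ℤ) (hb : b ≠ 0) : b ^ 2 = 1 ∨ 4 ≤ b ^ 2 := by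
  rcases lt_trichotomy b 0 with h | h | h
  · by_cases h1 : b = -1
    · left; rw [h1]; norm_num
    · right
      have h2 : b ≤ -2 := by omega
      nlinarith
  · exact absurd h hb
  · by_cases h1 : b = 1
    · left; rw [h1]; norm_num
    · right
      have h2 : 2 ≤ b := by omega
      nlinarith

/-- an integer of square `1` is `1` or `-1` -/
theorem eq_one_or_neg_one (b : ℤ) (hb : b ^ 2 = 1) : b = 1 ∨ b = -1 := by
  have h1 : (b - 1) * (b + 1) = 0 := by nlinarith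
  rcases mul_eq_zero.mp h1 with h | h
  · left; omega
  · right; omega

/-- the degree of a character with `ψ 1 = 1` -/
theorem charDegree_eq_one_of (ψ : G → ℂ) (h : ψ 1 = 1) : Cfsg.charDegree ψ = 1 := by
  unfold Cfsg.charDegree
  rw [h]
  simp

set_option maxHeartbeats 1600000 in
/-- Numerical form of `brauer_full`. -/
theorem block_data [IsSimpleGroup G] (hGn : ¬ (Nat.card G).Prime) (p : ℕ) [Fact p.Prime]
    (P : Sylow p G) (hP : Nat.card (P : Subgroup G) = p) (m : ℕ) (hm2 : m + 1 < p)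
    (hCN : (Subgroup.centralizer ((P : Subgroup G) : Set G)).relIndex
      (Subgroup.normalizer ((P : Subgroup G) : Set G)) = m) :
    ∃ (k : ℕ) (χ : Fin k → IrrCharacter G) (a : Fin k → ℤ) (y : ℕ) (d δ : ℤ),
      k + 1 ≤ m ∧ (δ = 1 ∨ δ = -1) ∧
      (∀ i, a i ≠ 0 ∧ (χ i : G → ℂ) 1 ≠ 1 ∧
        (∀ z w : G, IsPPart p z w → w ∈ (P : Subgroup G) → w ≠ 1 →
           (χ i : G → ℂ) z = (a i : ℂ)) ∧
        Cfsg.charDegree (χ i : G → ℂ) ≠ 1 ∧
        Cfsg.charDegree (χ i : G → ℂ) ∣ Nat.card G ∧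
        Cfsg.charDegree (χ i : G → ℂ) ^ 2 ≤ Nat.card G ∧
        ((Cfsg.charDegree (χ i : G → ℂ) : ℕ) : ℤ) % (p : ℤ) = a i % (p : ℤ)) ∧
      y ∣ Nat.card G ∧
      ((d - δ) ^ 2 + ((((p - 1) / m : ℕ) : ℤ) - 1) * d ^ 2 + 1 + ∑ i, a i ^ 2 = (m : ℤ) + 1) ∧
      (((((p - 1) / m : ℕ) : ℤ) * d - δ) * (y : ℤ) + 1 +
          ∑ i, a i * ((Cfsg.charDegree (χ i : G → ℂ) : ℕ) : ℤ) = 0) ∧
      (Nat.card (Subgroup.centralizer ((P : Subgroup G) : Set G)) = p →
        ∀ ψ : IrrCharacter G, Cfsg.charDegree (ψ : G → ℂ) = 1 ∨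
          (∃ i, Cfsg.charDegree (ψ : G → ℂ) = Cfsg.charDegree (χ i : G → ℂ)) ∨
          Cfsg.charDegree (ψ : G → ℂ) = y ∨ p ∣ Cfsg.charDegree (ψ : G → ℂ)) := by
  classical
  have hpp : p.Prime := Fact.out
  obtain ⟨M, k, χ, a, Y, d, δ, hM, hk, hδ, hinj, hχ, hYcard, hY1, hYreg, hnorm, hrel, hblock⟩ :=
    brauer_full hGn p P hP m hm2 hCN
  have hreg1 : ¬ p ∣ orderOf (1 : G) := by
    rw [orderOf_one]
    exact fun h => hpp.one_lt.ne' (Nat.dvd_one.mp h)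
  -- an element of Y
  have hm1 : 1 ≤ m := by omega
  have hYne : Nat.card Y ≠ 0 := by
    rw [hYcard]
    have h1 : m ≤ p - 1 := by omega
    have := Nat.div_pos h1 (by omega : 0 < m)
    omega
  obtain ⟨⟨η₀, hη₀⟩⟩ := (Nat.card_ne_zero.mp hYne).1
  obtain ⟨hyd, hypos, hydvd⟩ := Cfsg.Agent.Lib.Helper79.irr_charDegree η₀.2
  obtain ⟨y, hydef⟩ : ∃ y, y = Cfsg.charDegree (η₀ : G → ℂ) := ⟨_, rfl⟩
  rw [← hydef] at hyd hypos hydvd
  have hYdeg : ∀ η ∈ Y, Cfsg.charDegree (η : G → ℂ) = y := by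
    intro η hη
    have h1 := hYreg η hη η₀ hη₀ 1 hreg1
    rw [hydef]
    unfold Cfsg.charDegree
    rw [h1]
  have hdeg : ∀ i, (χ i : G → ℂ) 1 = ((Cfsg.charDegree (χ i : G → ℂ) : ℕ) : ℂ) ∧
      Cfsg.charDegree (χ i : G → ℂ) ≠ 1 ∧
      Cfsg.charDegree (χ i : G → ℂ) ∣ Nat.card G ∧
      Cfsg.charDegree (χ i : G → ℂ) ^ 2 ≤ Nat.card G ∧
      ((Cfsg.charDegree (χ i : G → ℂ) : ℕ) : ℤ) % (p : ℤ) = a i % (p : ℤ) := by
    intro i
    obtain ⟨ha, hx1, -, hxa⟩ := hχ i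
    have hirr := (χ i).2
    obtain ⟨hxd, hxpos, hxdvd⟩ := Cfsg.Agent.Lib.Helper79.irr_charDegree hirr
    have hmod := Cfsg.Agent.Lib.Helper90.BrauerDeg.degree_modEq hirr p (P : Subgroup G) hP (a i)
        (fun w hw hw1 => hxa w w (isPPart_self hpp _ hP w hw hw1) hw hw1)
    refine ⟨hxd, ?_, hxdvd, Cfsg.Agent.Lib.Helper80.charDegree_sq_le_card hirr, hmod⟩
    intro h
    apply hx1
    rw [hxd, h]
    norm_num
  refine ⟨k, χ, a, y, d, δ, hk, hδ, ?_, hydvd, hnorm, ?_, ?_⟩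
  · intro i
    obtain ⟨ha, hx1, -, hxa⟩ := hχ i
    obtain ⟨-, h1, h2, h3, h4⟩ := hdeg i
    exact ⟨ha, hx1, hxa, h1, h2, h3, h4⟩
  · have h0 := hrel η₀ hη₀ 1 hreg1
    have h : ((((((p - 1) / m : ℕ) : ℤ) * d - δ) * (y : ℤ) + 1 +
          ∑ i, a i * ((Cfsg.charDegree (χ i : G → ℂ) : ℕ) : ℤ) : ℤ) : ℂ) = 0 := by
      push_cast
      rw [← h0, hyd]
      congr 1
      exact Finset.sum_congr rfl (fun i _ => by rw [(hdeg i).1])
    exact_mod_cast h
  · intro hCP ψ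
    by_cases hψ : ψ ∈ Cfsg.principalBlock M G
    · rcases hblock ψ hψ with h | ⟨i, hi⟩ | h
      · exact Or.inl (charDegree_eq_one_of _ h)
      · exact Or.inr (Or.inl ⟨i, by rw [hi]⟩)
      · exact Or.inr (Or.inr (Or.inl (hYdeg ψ h)))
    · right; right; right
      apply dvd_charDegree_of_vanish p (P : Subgroup G) hP ψ
      intro w hw hw1
      apply vanish_off_principal p M hM w
        (orderOf_eq_of_mem_of_card_prime hpp (P : Subgroup G) hP w hw hw1) _ ψ hψ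
      rw [centralizer_singleton_eq hpp (P : Subgroup G) hP w hw hw1, hCP]

set_option maxHeartbeats 1600000 in
/-- A simple group with Sylow `3`-subgroups of order `3` has irreducible characters of
consecutive degrees `f`, `f + 1` with `f ≡ 1 mod 3` and `f ≠ 1`. -/
theorem three_pair [IsSimpleGroup G] (hGn : ¬ (Nat.card G).Prime)
    (P : Sylow 3 G) (hP : Nat.card (P : Subgroup G) = 3) :
    ∃ ψ₁ ψ₂ : IrrCharacter G, Cfsg.charDegree (ψ₁ : G → ℂ) ≠ 1 ∧
      Cfsg.charDegree (ψ₁ : G → ℂ) % 3 = 1 ∧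
      Cfsg.charDegree (ψ₂ : G → ℂ) = Cfsg.charDegree (ψ₁ : G → ℂ) + 1 := by
  classical
  have : Fact (Nat.Prime 3) := ⟨by norm_num⟩
  have hpp : Nat.Prime 3 := by norm_num
  obtain ⟨hr1, hr2, -, -⟩ := relIndex_centralizer_sylow_prime hGn 3 P hP
  obtain ⟨r, hr⟩ : ∃ r, r = (Subgroup.centralizer ((P : Subgroup G) : Set G)).relIndex
      (Subgroup.normalizer ((P : Subgroup G) : Set G)) := ⟨_, rfl⟩
  rw [← hr] at hr1 hr2
  have hr2' : r ∣ 2 := by simpa using hr2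
  have hrle : r ≤ 2 := Nat.le_of_dvd (by norm_num) hr2'
  have hr0 : r ≠ 0 := by
    rintro rfl
    simp at hr2'
  have hr2eq : r = 2 := by omega
  obtain ⟨k, χ, a, hinj, hχ, hnorm, hrel, -⟩ :=
    brauer_top hGn 3 P hP (by rw [← hr, hr2eq])
  have hreg1 : ¬ 3 ∣ orderOf (1 : G) := by rw [orderOf_one]; norm_num
  have hdeg : ∀ i, (χ i : G → ℂ) 1 = ((Cfsg.charDegree (χ i : G → ℂ) : ℕ) : ℂ) ∧
      Cfsg.charDegree (χ i : G → ℂ) ≠ 1 ∧ 0 < Cfsg.charDegree (χ i : G → ℂ) ∧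
      ((Cfsg.charDegree (χ i : G → ℂ) : ℕ) : ℤ) % 3 = a i % 3 := by
    intro i
    obtain ⟨ha, hx1, hxa⟩ := hχ i
    have hirr := (χ i).2
    obtain ⟨hxd, hxpos, hxdvd⟩ := Cfsg.Agent.Lib.Helper79.irr_charDegree hirr
    have hmod := Cfsg.Agent.Lib.Helper90.BrauerDeg.degree_modEq hirr 3 (P : Subgroup G) hP (a i)
        (fun w hw hw1 => hxa w w (isPPart_self hpp _ hP w hw hw1) hw hw1)
    refine ⟨hxd, ?_, hxpos, hmod⟩
    intro h
    apply hx1
    rw [hxd, h]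
    norm_num
  have hrel1 : 1 + ∑ i, a i * ((Cfsg.charDegree (χ i : G → ℂ) : ℕ) : ℤ) = 0 := by
    have h0 := hrel 1 hreg1
    have h : ((1 + ∑ i, a i * ((Cfsg.charDegree (χ i : G → ℂ) : ℕ) : ℤ) : ℤ) : ℂ) = 0 := by
      push_cast
      rw [← h0]
      congr 1
      exact Finset.sum_congr rfl (fun i _ => by rw [(hdeg i).1])
    exact_mod_cast h
  have hsq4 : ∀ i, a i ^ 2 = 1 ∨ 4 ≤ a i ^ 2 := fun i => sq_one_or_four (a i) (hχ i).1
  have hkA : (k : ℤ) ≤ ∑ i, a i ^ 2 := by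
    have h1 : ∑ _i : Fin k, (1 : ℤ) ≤ ∑ i, a i ^ 2 :=
      Finset.sum_le_sum (fun i _ => by rcases hsq4 i with h | h <;> omega)
    rw [Finset.sum_const, Finset.card_univ, Fintype.card_fin, nsmul_eq_mul, mul_one] at h1
    exact h1
  have hk' : k = 0 ∨ k = 1 ∨ k = 2 := by
    have : (k : ℤ) ≤ 2 := by
      have h3 : ((3 : ℕ) : ℤ) = 3 := by norm_num
      rw [h3] at hnorm
      linarith
    omega
  rcases hk' with rfl | rfl | rfl
  · exfalso
    simp at hnorm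
  · exfalso
    simp only [Fin.sum_univ_succ, Fin.sum_univ_zero, add_zero] at hnorm
    have h0 := hsq4 0
    push_cast at hnorm
    omega
  · simp only [Fin.sum_univ_two] at hnorm hrel1
    push_cast at hnorm
    have h0 := hsq4 0
    have h1 := hsq4 1
    have ha0 : a 0 = 1 ∨ a 0 = -1 := eq_one_or_neg_one _ (by omega)
    have ha1 : a 1 = 1 ∨ a 1 = -1 := eq_one_or_neg_one _ (by omega)
    obtain ⟨-, hx01, hx0pos, hx0mod⟩ := hdeg 0
    obtain ⟨-, hx11, hx1pos, hx1mod⟩ := hdeg 1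
    rcases ha0 with h0' | h0' <;> rcases ha1 with h1' | h1' <;>
      rw [h0', h1'] at hrel1 <;> rw [h0'] at hx0mod <;> rw [h1'] at hx1mod
    · exfalso; omega
    · exact ⟨χ 0, χ 1, hx01, by omega, by omega⟩
    · exact ⟨χ 1, χ 0, hx11, by omega, by omega⟩
    · exfalso; omega

end Cfsg.Agent.Lib.Helper4.OrdBlock
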