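import Mathlib
import Cfsg.Agent.Lib.Helper4.OrdBlock
import Cfsg.Agent.Lib.Helper91.SO2Wrap

set_option autoImplicit false

/-!
# No simple group of order `4620 = 2^2 * 3 * 5 * 7 * 11`

The principal `11`-block (with `[N(P) : C(P)] = 2`, `C(P) = P`) has degrees `1, 21` and five
exceptional characters of degree `20`; every other irreducible character has degree divisible
by `11`.  The principal `3`-block needs irreducible characters of degrees `(4, 5)` or
`(10, 11)`: a contradiction.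
-/

namespace Cfsg.Agent.Lib.Helper4.Ord4620

open Cfsg Cfsg.Agent.Lib.Helper17 Cfsg.Agent.Lib.Helper93.SO Cfsg.Agent.Lib.Helper91.SO2
  Cfsg.Agent.Lib.Helper4.OrdBlock

universe u

/-- the degree equation of the principal `11`-block among divisors of `4620` -/
theorem arith_11 (x y : ℕ) (hx : x ∣ 4620) (hy : y ∣ 4620) (hx1 : x ≠ 1) :
    0 < x ∧ ¬ (x % 11 = 1 ∧ y = x + 1) ∧ (x % 11 = 10 ∧ x = y + 1 → x = 21 ∧ y = 20) := by
  have hx' : x ∈ Nat.divisors 4620 := Nat.mem_divisors.mpr ⟨hx, by norm_num⟩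
  have hy' : y ∈ Nat.divisors 4620 := Nat.mem_divisors.mpr ⟨hy, by norm_num⟩
  have key : ∀ x ∈ Nat.divisors 4620, ∀ y ∈ Nat.divisors 4620, x ≠ 1 →
      0 < x ∧ ¬ (x % 11 = 1 ∧ y = x + 1) ∧ (x % 11 = 10 ∧ x = y + 1 → x = 21 ∧ y = 20) := by
    decide +kernel
  exact key x hx' y hy' hx1

/-- consecutive divisors `f`, `f + 1` of `4620` with `f ≡ 1 mod 3` -/
theorem arith_3 (f : ℕ) (hf : f ∣ 4620) (hf' : f + 1 ∣ 4620) (hf1 : f ≠ 1) (hmod : f % 3 = 1) :
    f = 4 ∨ f = 10 := by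
  have hx' : f ∈ Nat.divisors 4620 := Nat.mem_divisors.mpr ⟨hf, by norm_num⟩
  have key : ∀ f ∈ Nat.divisors 4620, f + 1 ∣ 4620 → f ≠ 1 → f % 3 = 1 → f = 4 ∨ f = 10 := by
    decide +kernel
  exact key f hx' hf' hf1 hmod

set_option maxHeartbeats 1600000 in
/-- the only local configuration -/
theorem case_4620 {G : Type*} [Group G] [Finite G] [IsSimpleGroup G] (hG : Nat.card G = 4620)
    (P : Sylow 11 G) (hP : Nat.card (P : Subgroup G) = 11)
    (hr : (Subgroup.centralizer ((P : Subgroup G) : Set G)).relIndex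
      (Subgroup.normalizer ((P : Subgroup G) : Set G)) = 2)
    (hC : Nat.card (Subgroup.centralizer ((P : Subgroup G) : Set G)) = 11) : False := by
  classical
  have : Fact (Nat.Prime 11) := ⟨by norm_num⟩
  have : Fact (Nat.Prime 3) := ⟨by norm_num⟩
  have hGn : ¬ (Nat.card G).Prime := by rw [hG]; norm_num
  obtain ⟨k, χ, a, y, d, δ, hk, hδ, hχ, hydvd, hnorm, hrel, hall⟩ :=
    block_data hGn 11 P hP 2 (by norm_num) hr
  have hall' := hall hC
  have h5 : ((11 - 1) / 2 : ℕ) = 5 := by norm_num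
  rw [h5] at hnorm hrel
  push_cast at hnorm hrel
  rw [hG] at hydvd
  have hsq4 : ∀ i, a i ^ 2 = 1 ∨ 4 ≤ a i ^ 2 := fun i => sq_one_or_four (a i) (hχ i).1
  have hA0 : 0 ≤ ∑ i, a i ^ 2 := Finset.sum_nonneg (fun i _ => sq_nonneg (a i))
  have hd0 : d = 0 := by
    by_contra hd
    have h1 : 1 ≤ d ^ 2 := by
      rcases sq_one_or_four d hd with h | h <;> omega
    nlinarith [sq_nonneg (d - δ)]
  subst hd0
  have hδ2 : δ ^ 2 = 1 := by rcases hδ with rfl | rfl <;> norm_num
  have hA1 : ∑ i, a i ^ 2 = 1 := by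
    have : (0 - δ) ^ 2 = δ ^ 2 := by ring
    rw [this, hδ2] at hnorm
    linarith
  have hk' : k = 0 ∨ k = 1 := by omega
  rcases hk' with rfl | rfl
  · simp at hA1
  · simp only [Fin.sum_univ_succ, Fin.sum_univ_zero, add_zero] at hA1 hrel
    obtain ⟨-, -, -, hx1, hxdvd, -, hxmod⟩ := hχ 0
    rw [hG] at hxdvd
    obtain ⟨x, hx⟩ : ∃ x, x = Cfsg.charDegree (χ 0 : G → ℂ) := ⟨_, rfl⟩
    rw [← hx] at hx1 hxdvd hxmod hrel
    push_cast at hxmod
    obtain ⟨hxpos, hkey1, hkey2⟩ := arith_11 x y hxdvd hydvd hx1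
    have hxy : x = 21 ∧ y = 20 := by
      rcases eq_one_or_neg_one _ hA1 with h | h <;> rcases hδ with h' | h' <;>
        rw [h, h'] at hrel <;> rw [h] at hxmod
      · exact absurd ⟨by omega, by omega⟩ hkey1
      · omega
      · omega
      · exact hkey2 ⟨by omega, by omega⟩
    obtain ⟨hx21, hy20⟩ := hxy
    -- the principal 3-block
    obtain ⟨P3⟩ := (Sylow.nonempty : Nonempty (Sylow 3 G))
    have hP3 : Nat.card (P3 : Subgroup G) = 3 := by
      simpa using card_sylow_eq_of_card_eq 3 1 1540 (by rw [hG]; norm_num) (by norm_num) P3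
    obtain ⟨ψ₁, ψ₂, hf1, hfmod, hf2⟩ := three_pair hGn P3 hP3
    have hd1 := (Cfsg.Agent.Lib.Helper79.irr_charDegree ψ₁.2).2.2
    have hd2 := (Cfsg.Agent.Lib.Helper79.irr_charDegree ψ₂.2).2.2
    rw [hG] at hd1 hd2
    rw [hf2] at hd2
    have hf := arith_3 _ hd1 hd2 hf1 hfmod
    have h1 := hall' ψ₁
    rcases h1 with h | ⟨i, hi⟩ | h | h
    · exact hf1 h
    · have hi0 : i = 0 := Subsingleton.elim _ _
      rw [hi0, ← hx, hx21] at hi
      omega
    · omega
    · omega

/-- No non-abelian simple group has order `4620`. -/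
theorem noSimple_4620 : NoSimple.{u} 4620 :=
  noSimple_of_cases 4620 11 2 420 (by norm_num) (by norm_num) (by norm_num) (by norm_num)
    (by norm_num) (by norm_num) (by norm_num) [(2, 11)] (by decide +kernel)
    (by
      intro rc hrc G _ _ _ hG P hP hr hC
      simp only [List.mem_singleton] at hrc
      subst hrc
      exact case_4620 hG P hP hr hC)

end Cfsg.Agent.Lib.Helper4.Ord4620
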