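import Mathlib
import Cfsg.Agent.Lib.Helper4.OrdBlock
import Cfsg.Agent.Lib.Helper91.SO2Wrap
import Cfsg.Agent.Lib.Helper91.SSFive2

set_option autoImplicit false

/-!
# No simple group of order `5460 = 2^2 * 3 * 5 * 7 * 13`

For a Sylow `13`-subgroup `P` the pair `([N(P) : C(P)], |C(P)|)` is `(2, 26)` or `(4, 13)`.
The first case dies by the value of the non-exceptional character at a central involution.
In the second case the principal `13`-block has degrees `1, 12, 12, 12` and three exceptional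
characters of degree `35`; every other irreducible character has degree divisible by `13`.
The principal `3`-block needs irreducible characters of degrees `(4, 5)` or `(13, 14)`: a
contradiction.
-/

namespace Cfsg.Agent.Lib.Helper4.Ord5460

open Cfsg Cfsg.Agent.Lib.Helper17 Cfsg.Agent.Lib.Helper93.SO Cfsg.Agent.Lib.Helper91.SO2
  Cfsg.Agent.Lib.Helper91.SS Cfsg.Agent.Lib.Helper4.OrdBlock

universe u

/-- candidates for the degrees of the non-exceptional characters of the principal `13`-block -/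
theorem list_13 (f : ℕ) (hf : f ∣ 5460) (h1 : f ≠ 1) (hsq : f ^ 2 ≤ 5460)
    (hmod : f % 13 = 1 ∨ f % 13 = 12) : f = 12 ∨ f = 14 := by
  have hf' : f ∈ Nat.divisors 5460 := Nat.mem_divisors.mpr ⟨hf, by norm_num⟩
  have key : ∀ f ∈ Nat.divisors 5460, f ≠ 1 → f ^ 2 ≤ 5460 → (f % 13 = 1 ∨ f % 13 = 12) →
      f = 12 ∨ f = 14 := by decide +kernel
  exact key f hf' h1 hsq hmod

/-- consecutive divisors `f`, `f + 1` of `5460` with `f ≡ 1 mod 3` -/
theorem arith_3 (f : ℕ) (hf : f ∣ 5460) (hf' : f + 1 ∣ 5460) (hf1 : f ≠ 1) (hmod : f % 3 = 1) :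
    f = 4 ∨ f = 13 := by
  have hx' : f ∈ Nat.divisors 5460 := Nat.mem_divisors.mpr ⟨hf, by norm_num⟩
  have key : ∀ f ∈ Nat.divisors 5460, f + 1 ∣ 5460 → f ≠ 1 → f % 3 = 1 → f = 4 ∨ f = 13 := by
    decide +kernel
  exact key f hx' hf' hf1 hmod

/-- the degree of an exceptional character in the case `(4, 13)` -/
theorem arith_y (y : ℕ) (hy : y ∣ 5460) : y ≠ 43 ∧ y ≠ 17 ∧ y ≠ 9 := by
  refine ⟨?_, ?_, ?_⟩ <;> rintro rfl <;> norm_num at hy

set_option maxHeartbeats 1600000 in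
/-- the case `[N(P) : C(P)] = 2`, `|C(P)| = 26` -/
theorem case_5460_a {G : Type*} [Group G] [Finite G] [IsSimpleGroup G] (hG : Nat.card G = 5460)
    (P : Sylow 13 G) (hP : Nat.card (P : Subgroup G) = 13)
    (hr : (Subgroup.centralizer ((P : Subgroup G) : Set G)).relIndex
      (Subgroup.normalizer ((P : Subgroup G) : Set G)) = 2)
    (hC : Nat.card (Subgroup.centralizer ((P : Subgroup G) : Set G)) = 26) : False := by
  classical
  have : Fact (Nat.Prime 13) := ⟨by norm_num⟩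
  have hGn : ¬ (Nat.card G).Prime := by rw [hG]; norm_num
  obtain ⟨k, χ, a, y, d, δ, hk, hδ, hχ, hydvd, hnorm, hrel, -⟩ :=
    block_data hGn 13 P hP 2 (by norm_num) hr
  have h6 : ((13 - 1) / 2 : ℕ) = 6 := by norm_num
  rw [h6] at hnorm hrel
  push_cast at hnorm hrel
  have hsq4 : ∀ i, a i ^ 2 = 1 ∨ 4 ≤ a i ^ 2 := fun i => sq_one_or_four (a i) (hχ i).1
  have hA0 : 0 ≤ ∑ i, a i ^ 2 := Finset.sum_nonneg (fun i _ => sq_nonneg (a i))
  have hd0 : d = 0 := by
    by_contra hd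
    have h1 : 1 ≤ d ^ 2 := by
      rcases sq_one_or_four d hd with h | h <;> omega
    nlinarith [sq_nonneg (d - δ)]
  subst hd0
  have hδ2 : δ ^ 2 = 1 := by rcases hδ with rfl | rfl <;> norm_num
  have hA1 : ∑ i, a i ^ 2 = 1 := by
    have : (0 - δ) ^ 2 = δ ^ 2 := by ring
    rw [this, hδ2] at hnorm
    linarith
  have hk' : k = 0 ∨ k = 1 := by omega
  rcases hk' with rfl | rfl
  · simp at hA1
  · simp only [Fin.sum_univ_succ, Fin.sum_univ_zero, add_zero] at hA1
    obtain ⟨-, hχ1, hval, hx1, hxdvd, hxsq, hxmod⟩ := hχ 0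
    rw [hG] at hxdvd hxsq
    -- an involution of `C(P)`
    obtain ⟨c', hc'⟩ := exists_prime_orderOf_dvd_card'
      (G := Subgroup.centralizer ((P : Subgroup G) : Set G)) 2 (by rw [hC]; norm_num)
    have hco : orderOf (c' : G) = 2 := by rw [Subgroup.orderOf_coe]; exact hc'
    obtain ⟨n, k', hnk, hk1, hk2, -⟩ :=
      involution_value hGn 13 (by norm_num) (P : Subgroup G) hP (χ 0) hχ1 (a 0) hval
        (c' : G) c'.2 hco
    obtain ⟨x, hx⟩ : ∃ x, x = Cfsg.charDegree (χ 0 : G → ℂ) := ⟨_, rfl⟩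
    rw [← hx] at hx1 hxdvd hxsq hxmod hnk hk2
    push_cast at hxmod hnk
    rcases eq_one_or_neg_one _ hA1 with h | h <;> rw [h] at hxmod hnk
    · have hx14 := list_13 x hxdvd hx1 hxsq (Or.inl (by omega))
      omega
    · have hx12 := list_13 x hxdvd hx1 hxsq (Or.inr (by omega))
      omega

set_option maxHeartbeats 3200000 in
/-- the case `[N(P) : C(P)] = 4`, `C(P) = P` -/
theorem case_5460_b {G : Type*} [Group G] [Finite G] [IsSimpleGroup G] (hG : Nat.card G = 5460)
    (P : Sylow 13 G) (hP : Nat.card (P : Subgroup G) = 13)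
    (hr : (Subgroup.centralizer ((P : Subgroup G) : Set G)).relIndex
      (Subgroup.normalizer ((P : Subgroup G) : Set G)) = 4)
    (hC : Nat.card (Subgroup.centralizer ((P : Subgroup G) : Set G)) = 13) : False := by
  classical
  have : Fact (Nat.Prime 13) := ⟨by norm_num⟩
  have : Fact (Nat.Prime 3) := ⟨by norm_num⟩
  have hGn : ¬ (Nat.card G).Prime := by rw [hG]; norm_num
  obtain ⟨k, χ, a, y, d, δ, hk, hδ, hχ, hydvd, hnorm, hrel, hall⟩ :=
    block_data hGn 13 P hP 4 (by norm_num) hr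
  have hall' := hall hC
  have h3 : ((13 - 1) / 4 : ℕ) = 3 := by norm_num
  rw [h3] at hnorm hrel
  push_cast at hnorm hrel
  rw [hG] at hydvd
  obtain ⟨hy43, hy17, hy9⟩ := arith_y y hydvd
  have hsq4 : ∀ i, a i ^ 2 = 1 ∨ 4 ≤ a i ^ 2 := fun i => sq_one_or_four (a i) (hχ i).1
  have hA0 : 0 ≤ ∑ i, a i ^ 2 := Finset.sum_nonneg (fun i _ => sq_nonneg (a i))
  obtain ⟨A, hA⟩ : ∃ A, A = ∑ i, a i ^ 2 := ⟨_, rfl⟩
  rw [← hA] at hnorm hA0
  have hd : -1 ≤ d ∧ d ≤ 1 := by
    constructor <;> nlinarith [sq_nonneg (d - δ), sq_nonneg (d - 1), sq_nonneg (d + 1)]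
  have hcases : (d = 0 ∧ A = 3) ∨ (d = δ ∧ A = 2) := by
    obtain ⟨hd1, hd2⟩ := hd
    rcases hδ with rfl | rfl <;> interval_cases d <;> norm_num at hnorm ⊢ <;> omega
  have hAle : A ≤ 3 := by rcases hcases with ⟨-, h⟩ | ⟨-, h⟩ <;> omega
  -- every `a i` is `±1`, with degree `14` resp. `12`
  have hai : ∀ i, (a i = 1 ∧ Cfsg.charDegree (χ i : G → ℂ) = 14) ∨
      (a i = -1 ∧ Cfsg.charDegree (χ i : G → ℂ) = 12) := by
    intro i
    have hle : a i ^ 2 ≤ A := by
      rw [hA]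
      exact Finset.single_le_sum (f := fun j => a j ^ 2) (fun j _ => sq_nonneg (a j))
        (Finset.mem_univ i)
    have hi1 : a i ^ 2 = 1 := by rcases hsq4 i with h | h <;> omega
    obtain ⟨-, -, -, hx1, hxdvd, hxsq, hxmod⟩ := hχ i
    rw [hG] at hxdvd hxsq
    push_cast at hxmod
    rcases eq_one_or_neg_one _ hi1 with h | h <;> rw [h] at hxmod
    · have := list_13 _ hxdvd hx1 hxsq (Or.inl (by omega))
      left
      exact ⟨h, by omega⟩
    · have := list_13 _ hxdvd hx1 hxsq (Or.inr (by omega))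
      right
      exact ⟨h, by omega⟩
  have hk' : k = 0 ∨ k = 1 ∨ k = 2 ∨ k = 3 := by omega
  -- the degrees: all `χ i` have degree `12` and `y = 35`
  have hmain : (∀ i, Cfsg.charDegree (χ i : G → ℂ) = 12) ∧ y = 35 := by
    rcases hk' with rfl | rfl | rfl | rfl
    · exfalso
      simp only [Finset.univ_eq_empty, Finset.sum_empty] at hA
      rcases hcases with ⟨-, h⟩ | ⟨-, h⟩ <;> omega
    · exfalso
      simp only [Fin.sum_univ_succ, Fin.sum_univ_zero, add_zero] at hA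
      have h0 := hai 0
      have hA1 : A = 1 := by
        rcases h0 with ⟨h, -⟩ | ⟨h, -⟩ <;> rw [hA, h] <;> norm_num
      rcases hcases with ⟨-, h⟩ | ⟨-, h⟩ <;> omega
    · exfalso
      simp only [Fin.sum_univ_two] at hA hrel
      have h0 := hai 0
      have h1 := hai 1
      have hA2 : A = 2 := by
        rcases h0 with ⟨h, -⟩ | ⟨h, -⟩ <;> rcases h1 with ⟨h', -⟩ | ⟨h', -⟩ <;>
          rw [hA, h, h'] <;> norm_num
      rcases hcases with ⟨-, h⟩ | ⟨hdδ, -⟩
      · omega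
      · rw [hdδ] at hrel
        rcases hδ with rfl | rfl <;>
          rcases h0 with ⟨h, hx0⟩ | ⟨h, hx0⟩ <;> rcases h1 with ⟨h', hx1⟩ | ⟨h', hx1⟩ <;>
          rw [h, h', hx0, hx1] at hrel <;> push_cast at hrel <;> omega
    · simp only [Fin.sum_univ_three] at hA hrel
      have h0 := hai 0
      have h1 := hai 1
      have h2 := hai 2
      have hA3 : A = 3 := by
        rcases h0 with ⟨h, -⟩ | ⟨h, -⟩ <;> rcases h1 with ⟨h', -⟩ | ⟨h', -⟩ <;>
          rcases h2 with ⟨h'', -⟩ | ⟨h'', -⟩ <;> rw [hA, h, h', h''] <;> norm_num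
      have hd0 : d = 0 := by rcases hcases with ⟨h, -⟩ | ⟨-, h⟩ <;> omega
      rw [hd0] at hrel
      have hkey : (Cfsg.charDegree (χ 0 : G → ℂ) = 12 ∧ Cfsg.charDegree (χ 1 : G → ℂ) = 12 ∧
          Cfsg.charDegree (χ 2 : G → ℂ) = 12) ∧ y = 35 := by
        rcases hδ with rfl | rfl <;>
          rcases h0 with ⟨h, hx0⟩ | ⟨h, hx0⟩ <;> rcases h1 with ⟨h', hx1⟩ | ⟨h', hx1⟩ <;>
          rcases h2 with ⟨h'', hx2⟩ | ⟨h'', hx2⟩ <;>
          rw [h, h', h'', hx0, hx1, hx2] at hrel <;> push_cast at hrel <;>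
          first
            | (exfalso; omega)
            | exact ⟨⟨hx0, hx1, hx2⟩, by omega⟩
      refine ⟨?_, hkey.2⟩
      intro i
      fin_cases i
      · exact hkey.1.1
      · exact hkey.1.2.1
      · exact hkey.1.2.2
  obtain ⟨hx12, hy35⟩ := hmain
  -- the principal 3-block
  obtain ⟨P3⟩ := (Sylow.nonempty : Nonempty (Sylow 3 G))
  have hP3 : Nat.card (P3 : Subgroup G) = 3 := by
    simpa using card_sylow_eq_of_card_eq 3 1 1820 (by rw [hG]; norm_num) (by norm_num) P3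
  obtain ⟨ψ₁, ψ₂, hf1, hfmod, hf2⟩ := three_pair hGn P3 hP3
  have hd1 := (Cfsg.Agent.Lib.Helper79.irr_charDegree ψ₁.2).2.2
  have hd2 := (Cfsg.Agent.Lib.Helper79.irr_charDegree ψ₂.2).2.2
  rw [hG] at hd1 hd2
  rw [hf2] at hd2
  have hf := arith_3 _ hd1 hd2 hf1 hfmod
  have h1 := hall' ψ₁
  have h2 := hall' ψ₂
  rw [hf2] at h2
  rcases h1 with h | ⟨i, hi⟩ | h | h
  · exact hf1 h
  · rw [hx12 i] at hi
    omega
  · omega
  · rcases h2 with h' | ⟨i, hi⟩ | h' | h'
    · omega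
    · rw [hx12 i] at hi
      omega
    · omega
    · omega

/-- No non-abelian simple group has order `5460`. -/
theorem noSimple_5460 : NoSimple.{u} 5460 :=
  noSimple_of_cases 5460 13 2 420 (by norm_num) (by norm_num) (by norm_num) (by norm_num)
    (by norm_num) (by norm_num) (by norm_num) [(2, 26), (4, 13)] (by decide +kernel)
    (by
      intro rc hrc G _ _ _ hG P hP hr hC
      simp only [List.mem_cons, List.not_mem_nil, or_false] at hrc
      rcases hrc with rfl | rfl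
      · exact case_5460_a hG P hP hr hC
      · exact case_5460_b hG P hP hr hC)

end Cfsg.Agent.Lib.Helper4.Ord5460
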